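import Cfsg.Agent.Lib.Helper80.LBM.Base

set_option autoImplicit false

namespace Cfsg.Agent.Lib.Helper80.LBM

open Matrix QuadraticMap Module Cfsg.Agent.Lib.Helper13.OOut Cfsg.Agent.Lib.Helper43.PA
  Cfsg.Agent.Lib.Helper43.PO Cfsg.Agent.Lib.Helper44

universe u

variable {F : Type u} [Field F] {ι : Type} [Fintype ι] [DecidableEq ι]

/-- [EC] `CommSq` gives commutation with the Eichler transformations commuting with `g`. -/
theorem act_eichler_of_commSq [Fintype F] (h2 : (2 : F) ≠ 0) (Q : QuadraticForm F (ι → F))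
    (hQ : (polarBilin Q).Nondegenerate) (hn : 5 ≤ Fintype.card ι) (g : GL ι F) (z : SG F ι)
    (hz : CommSq ⇑Q g z) (u v : ι → F) (hu : Q u = 0) (huv : polar Q u v = 0)
    (hc : ∀ w, (g : Matrix ι ι F) *ᵥ (eichler Q u ((2⁻¹ : F) • v) hu
        (by rw [polar_smul_right, huv, smul_zero]) w)
      = eichler Q u ((2⁻¹ : F) • v) hu (by rw [polar_smul_right, huv, smul_zero])
        ((g : Matrix ι ι F) *ᵥ w)) (w : ι → F) :
    act z (eichler Q u v hu huv w) = eichler Q u v hu huv (act z w) := by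
  have huw : polar Q u ((2⁻¹ : F) • v) = 0 := by rw [polar_smul_right, huv, smul_zero]
  let t : ↥(Cfsg.Omega F ⇑Q) := ⟨eichlerElt Q u ((2⁻¹ : F) • v) hu huw,
    eichlerElt_mem_Omega Q hQ hn u _ hu huw⟩
  have ht : ((t : ↥(Cfsg.isometryGroup F ⇑Q)) : GL ι F) * g
      = g * ((t : ↥(Cfsg.isometryGroup F ⇑Q)) : GL ι F) := by
    apply Units.ext
    apply matrix_ext_mulVec
    intro x
    rw [Units.val_mul, Units.val_mul, ← Matrix.mulVec_mulVec, ← Matrix.mulVec_mulVec]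
    show ((eichlerElt Q u ((2⁻¹ : F) • v) hu huw : GL ι F) : Matrix ι ι F) *ᵥ _
      = (g : Matrix ι ι F) *ᵥ (((eichlerElt Q u ((2⁻¹ : F) • v) hu huw : GL ι F) :
        Matrix ι ι F) *ᵥ x)
    rw [eichlerElt_mulVec, eichlerElt_mulVec, hc]
  have h4 := eichlerElt_half_mul_self h2 Q u v hu huv huw
  have key := hz t ht w
  have h5 : ∀ x, (((t : ↥(Cfsg.isometryGroup F ⇑Q)) : GL ι F) : Matrix ι ι F) *ᵥ
      ((((t : ↥(Cfsg.isometryGroup F ⇑Q)) : GL ι F) : Matrix ι ι F) *ᵥ x)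
      = eichler Q u v hu huv x := by
    intro x
    rw [Matrix.mulVec_mulVec, ← eichlerElt_mulVec, ← h4]
  rw [h5, h5] at key
  exact key

end Cfsg.Agent.Lib.Helper80.LBM
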