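import Cfsg.Agent.Lib.Helper80.LBM.Defs
import Cfsg.Agent.Lib.Helper80.LBM.Gen
import Cfsg.Agent.Lib.Helper43.PO.MinusRow

set_option autoImplicit false

/-!
# Local balance for the minus type orthogonal groups (row S2733): base definitions, wave 2
-/

namespace Cfsg.Agent.Lib.Helper80.LBM

open Matrix QuadraticMap Module Cfsg.Agent.Lib.Helper13.OOut Cfsg.Agent.Lib.Helper43.PA
  Cfsg.Agent.Lib.Helper43.PO Cfsg.Agent.Lib.Helper44

universe u

variable {F : Type u} [Field F] {ι : Type} [Fintype ι] [DecidableEq ι]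

/-- the action of a semisimilarity on `Ω`. -/
noncomputable def thO (Q : (ι → F) → F) (y : ↥(Gam Q)) : MulAut ↥(Cfsg.Omega F Q) :=
  autRestrict (commutator ↥(Cfsg.isometryGroup F Q)) (isoAct Q y)

lemma thO_coe (Q : (ι → F) → F) (y : ↥(Gam Q)) (s : ↥(Cfsg.Omega F Q)) :
    (((thO Q y s : ↥(Cfsg.Omega F Q)) : ↥(Cfsg.isometryGroup F Q)) : GL ι F)
      = cAut (y : SG F ι) ((s : ↥(Cfsg.isometryGroup F Q)) : GL ι F) := rfl

lemma Th_mk (Q : (ι → F) → F) (y : ↥(Gam Q)) (s : ↥(Cfsg.Omega F Q)) :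
    Th Q y (QuotientGroup.mk s) = QuotientGroup.mk (thO Q y s) := rfl

/-- the image in `PΩ` of the fixed points on `Ω`. -/
noncomputable def LQ (Q : (ι → F) → F) (y : ↥(Gam Q)) : Subgroup (Cfsg.POmega F Q) :=
  LLg (thO Q y)

/-- `z` commutes with the squares of the elements of `Ω` commuting with `g`. -/
def CommSq (Q : (ι → F) → F) (g : GL ι F) (z : SG F ι) : Prop :=
  ∀ t : ↥(Cfsg.Omega F Q), ((t : ↥(Cfsg.isometryGroup F Q)) : GL ι F) * g
      = g * ((t : ↥(Cfsg.isometryGroup F Q)) : GL ι F) →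
    ∀ v, act z ((((t : ↥(Cfsg.isometryGroup F Q)) : GL ι F) : Matrix ι ι F) *ᵥ
        ((((t : ↥(Cfsg.isometryGroup F Q)) : GL ι F) : Matrix ι ι F) *ᵥ v))
      = (((t : ↥(Cfsg.isometryGroup F Q)) : GL ι F) : Matrix ι ι F) *ᵥ
        ((((t : ↥(Cfsg.isometryGroup F Q)) : GL ι F) : Matrix ι ι F) *ᵥ act z v)

/-- the structure of a vector space over `E = F(√μ)` with an `E`-quadratic form `q`,
`Q = re ∘ q`, attached to a self-adjoint similarity `g` with `g ^ 2 = μ`. -/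
structure EStr (Q : QuadraticForm F (ι → F)) (g : GL ι F) (μ : F)
    [Fact (∀ r : F, r ^ 2 ≠ μ + 0 * r)] where
  d : ℕ
  card_eq : Fintype.card ι = 2 * d
  q : QuadraticForm (EE μ) (Fin d → EE μ)
  hq : (polarBilin q).Nondegenerate
  j : (ι → F) ≃+ (Fin d → EE μ)
  j_smul : ∀ (c : F) (v : ι → F), j (c • v) = algebraMap F (EE μ) c • j v
  j_g : ∀ v : ι → F, j ((g : Matrix ι ι F) *ᵥ v) = (QuadraticAlgebra.omega : EE μ) • j v
  Q_eq : ∀ v : ι → F, Q v = (q (j v)).re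
  R : ↥(Cfsg.isometryGroup (EE μ) ⇑q) →* ↥(Cfsg.isometryGroup F ⇑Q)
  j_R : ∀ (s : ↥(Cfsg.isometryGroup (EE μ) ⇑q)) (v : ι → F),
    j (((R s : GL ι F) : Matrix ι ι F) *ᵥ v) = ((s : GL (Fin d) (EE μ)) : Matrix _ _ (EE μ)) *ᵥ j v

end Cfsg.Agent.Lib.Helper80.LBM
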