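import Mathlib

set_option autoImplicit false

/-!
# Local balance for the minus type orthogonal groups (row S2733): definitions for the farm

`EE μ = F(√μ)` as `QuadraticAlgebra F μ 0`, restriction of scalars of matrices (`rho`) and of
vectors (`jj`).
-/

namespace Cfsg.Agent.Lib.Helper80.LBM

open Matrix

variable {F : Type*} [Field F]

/-- the quadratic extension `F(ω)`, `ω ^ 2 = μ`. -/
abbrev EE (μ : F) := QuadraticAlgebra F μ 0

/-- restriction of scalars: `X + ω Y ↦ [[X, μ Y], [Y, X]]`. -/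
def rho (μ : F) {d : ℕ} (Z : Matrix (Fin d) (Fin d) (EE μ)) :
    Matrix (Fin d ⊕ Fin d) (Fin d ⊕ Fin d) F :=
  fromBlocks (Z.map (fun z => z.re)) (μ • Z.map (fun z => z.im)) (Z.map (fun z => z.im))
    (Z.map (fun z => z.re))

/-- `(a, b) ↦ a + ω b`. -/
def jj (μ : F) {d : ℕ} (v : Fin d ⊕ Fin d → F) : Fin d → EE μ :=
  fun k => ⟨v (Sum.inl k), v (Sum.inr k)⟩

/-- the inverse of `jj`. -/
def jjInv (μ : F) {d : ℕ} (w : Fin d → EE μ) : Fin d ⊕ Fin d → F :=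
  Sum.elim (fun k => (w k).re) (fun k => (w k).im)

/-- multiplication by `ω`. -/
def g0 (μ : F) (d : ℕ) : Matrix (Fin d ⊕ Fin d) (Fin d ⊕ Fin d) F :=
  fromBlocks 0 (μ • 1) 1 0

/-- `diag(1, μ)`. -/
def Del (μ : F) (d : ℕ) : Matrix (Fin d ⊕ Fin d) (Fin d ⊕ Fin d) F :=
  fromBlocks 1 0 0 (μ • 1)

end Cfsg.Agent.Lib.Helper80.LBM
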