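import Cfsg.Agent.Lib.Helper80.LBM.Base
import Cfsg.Agent.Lib.Helper8.LBMA
import Cfsg.Agent.Lib.Helper63.LBMEL

set_option autoImplicit false

namespace Cfsg.Agent.Lib.Helper80.LBM

open Matrix QuadraticMap Module Cfsg.Agent.Lib.Helper13.OOut Cfsg.Agent.Lib.Helper43.PA
  Cfsg.Agent.Lib.Helper43.PO Cfsg.Agent.Lib.Helper44 Cfsg.Agent.Lib.Helper8.LBM
  Cfsg.Agent.Lib.Helper63.LBM

universe u

variable {F : Type u} [Field F] {ι : Type} [Fintype ι] [DecidableEq ι]

lemma map_mem_commutator {G₁ G₂ : Type*} [Group G₁] [Group G₂] (R : G₁ →* G₂) {s : G₁}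
    (hs : s ∈ commutator G₁) : R s ∈ commutator G₂ := by
  have h1 : (commutator G₁).map R ≤ commutator G₂ := by
    rw [commutator_def, commutator_def, Subgroup.map_commutator]
    exact Subgroup.commutator_mono le_top le_top
  exact h1 ⟨s, hs, rfl⟩

/-- [J2a] `z` is a scalar of `E`. -/
theorem EStr.scalar [Fintype F] (h2 : (2 : F) ≠ 0) (Q : QuadraticForm F (ι → F))
    (hQ : (polarBilin Q).Nondegenerate) (g : GL ι F) (μ : F) [Fact (∀ r : F, r ^ 2 ≠ μ + 0 * r)]
    (S : EStr Q g μ) (hd : 5 ≤ S.d) (z : SG F ι) (hz : CommSq ⇑Q g z) :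
    ∃ α : EE μ, ∀ v, S.j (act z v) = α • S.j v := by
  let _ : Fintype (EE μ) := Fintype.ofEquiv (F × F) (QuadraticAlgebra.equivProd μ 0).symm
  have h2E : (2 : EE μ) ≠ 0 := by
    intro h
    apply h2
    apply (algebraMap F (EE μ)).injective
    rw [map_ofNat, map_zero]
    exact h
  let f : (Fin S.d → EE μ) →+ (Fin S.d → EE μ) :=
    AddMonoidHom.mk' (fun w => S.j (act z (S.j.symm w))) (by
      intro a b
      rw [map_add, act_add, map_add])
  have hfdef : ∀ w, f w = S.j (act z (S.j.symm w)) := fun _ => rfl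
  have hfr : finrank (EE μ) (Fin S.d → EE μ) = S.d := by simp
  suffices hsuff : ∀ u, S.q u = 0 → ∃ c : EE μ, f u = c • (LinearMap.id : _ →ₗ[EE μ] _) u by
    obtain ⟨α, hα⟩ := rig_add h2E S.q S.hq (by rw [hfr]; omega) LinearMap.id
      Function.injective_id f hsuff
    refine ⟨α, fun v => ?_⟩
    have := hα (S.j v)
    rw [hfdef, S.j.symm_apply_apply] at this
    exact this
  · intro u hu
    by_cases hu0 : u = 0
    · exact ⟨0, by rw [hu0, map_zero, zero_smul]⟩
    obtain ⟨f', -, hf'⟩ := exists_hyp_partner S.hq hu0 hu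
    have h3 := le_finrank_perp2 S.q u u
    obtain ⟨v, hv, hvq⟩ := exists_nonsingular_of_finrank S.hq (perp2 S.q u u) (by omega)
    have huv : polar S.q u v = 0 := (mem_perp2.1 hv).1
    have huw : polar S.q u ((2⁻¹ : EE μ) • v) = 0 := by rw [polar_smul_right, huv, smul_zero]
    refine eichler_line h2E S.q u v hu huv hvq ⟨f', by rw [hf']; exact one_ne_zero⟩ f ?_
    intro w
    let s : ↥(Cfsg.isometryGroup (EE μ) ⇑S.q) := eichlerElt S.q u ((2⁻¹ : EE μ) • v) hu huw
    have hs : s ∈ Cfsg.Omega (EE μ) ⇑S.q :=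
      eichlerElt_mem_Omega S.q S.hq (by simpa using hd) u _ hu huw
    let t : ↥(Cfsg.Omega F ⇑Q) := ⟨S.R s, map_mem_commutator S.R hs⟩
    have ht : ((t : ↥(Cfsg.isometryGroup F ⇑Q)) : GL ι F) * g
        = g * ((t : ↥(Cfsg.isometryGroup F ⇑Q)) : GL ι F) := by
      apply Units.ext
      apply matrix_ext_mulVec
      intro x
      apply S.j.injective
      rw [Units.val_mul, Units.val_mul, ← Matrix.mulVec_mulVec, ← Matrix.mulVec_mulVec]
      show S.j (((S.R s : GL ι F) : Matrix ι ι F) *ᵥ _) = S.j ((g : Matrix ι ι F) *ᵥ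
        (((S.R s : GL ι F) : Matrix ι ι F) *ᵥ x))
      rw [S.j_R, S.j_g, S.j_g, S.j_R, Matrix.mulVec_smul]
    have h4 := eichlerElt_half_mul_self h2E S.q u v hu huv huw
    have h5 : ∀ x, S.j ((((t : ↥(Cfsg.isometryGroup F ⇑Q)) : GL ι F) : Matrix ι ι F) *ᵥ
        ((((t : ↥(Cfsg.isometryGroup F ⇑Q)) : GL ι F) : Matrix ι ι F) *ᵥ x))
        = eichler S.q u v hu huv (S.j x) := by
      intro x
      show S.j (((S.R s : GL ι F) : Matrix ι ι F) *ᵥ (((S.R s : GL ι F) : Matrix ι ι F) *ᵥ x)) = _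
      rw [S.j_R, S.j_R, Matrix.mulVec_mulVec, ← eichlerElt_mulVec, ← h4]
    have key := congrArg S.j (hz t ht (S.j.symm w))
    rw [h5] at key
    rw [hfdef, hfdef, ← key]
    congr 2
    apply S.j.injective
    rw [h5, S.j.apply_symm_apply, S.j.apply_symm_apply]

end Cfsg.Agent.Lib.Helper80.LBM
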