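import Cfsg.Agent.Lib.Helper80.LBM.Base

set_option autoImplicit false

namespace Cfsg.Agent.Lib.Helper80.LBM

open Matrix QuadraticMap Module Cfsg.Agent.Lib.Helper13.OOut Cfsg.Agent.Lib.Helper43.PA
  Cfsg.Agent.Lib.Helper43.PO Cfsg.Agent.Lib.Helper44

universe u

variable {F : Type u} [Field F] {ι : Type} [Fintype ι] [DecidableEq ι]

/-- [J2b] rigidity, type II, from J2a. -/
theorem hc_II_of_scalar (h2 : (2 : F) ≠ 0) (Q : QuadraticForm F (ι → F)) (g : GL ι F) (μ : F)
    [hF : Fact (∀ r : F, r ^ 2 ≠ μ + 0 * r)] (S : EStr Q g μ) (hd : 1 ≤ S.d) (z : SG F ι)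
    (hzG : z ∈ Gam ⇑Q) (α : EE μ) (hα : ∀ v, S.j (act z v) = α • S.j v) :
    z.right = 1 ∧ ∃ c : F, (z.left : Matrix ι ι F) * (z.left : Matrix ι ι F)
      = c • (1 : Matrix ι ι F) := by
  have hμ0 : μ ≠ 0 := by
    rintro rfl
    exact hF.out 0 (by simp)
  obtain ⟨w₀, hw₀⟩ := exists_nonsingular S.hq (by simp; omega)
  have hw0 : w₀ ≠ 0 := by
    rintro rfl
    exact hw₀ (by simp)
  obtain ⟨v₀, hv₀⟩ : ∃ v₀, S.j v₀ = w₀ := ⟨S.j.symm w₀, S.j.apply_symm_apply w₀⟩
  have hact0 : act z (0 : ι → F) = 0 := by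
    have := act_smul z 0 (0 : ι → F)
    simpa using this
  have hactinj : ∀ v, act z v = 0 → v = 0 := by
    intro v hv
    have := act_inv_act z v
    rw [hv] at this
    rw [← this]
    have h0 := act_smul z⁻¹ 0 (0 : ι → F)
    simpa using h0
  have hα0 : α ≠ 0 := by
    rintro rfl
    have h1 := hα v₀
    rw [zero_smul] at h1
    have h3 : act z v₀ = 0 := by
      apply S.j.injective
      rw [h1, map_zero]
    have h4 := hactinj _ h3
    rw [h4, map_zero] at hv₀
    exact hw0 hv₀.symm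
  have hσ : z.right = 1 := by
    ext c
    have h1 := congrArg S.j (act_smul z c v₀)
    rw [hα, S.j_smul, S.j_smul, hα, hv₀, smul_smul, smul_smul] at h1
    have h3 : (α * algebraMap F (EE μ) c - algebraMap F (EE μ) (z.right c) * α) • w₀ = 0 := by
      rw [sub_smul, h1, sub_self]
    rcases smul_eq_zero.1 h3 with h4 | h4
    · have h5 : α * (algebraMap F (EE μ) c - algebraMap F (EE μ) (z.right c)) = 0 := by
        rw [← h4]; ring
      rcases mul_eq_zero.1 h5 with h6 | h6
      · exact absurd h6 hα0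
      · rw [sub_eq_zero] at h6
        exact ((algebraMap F (EE μ)).injective h6).symm
    · exact absurd h4 hw0
  refine ⟨hσ, ?_⟩
  obtain ⟨ν, hν⟩ := mem_Gam.1 hzG
  have hq : ∀ w : Fin S.d → EE μ, (α * α * S.q w).re = (ν : F) * (S.q w).re := by
    intro w
    have h1 := hν (S.j.symm w)
    rw [S.Q_eq, S.Q_eq, hα, S.j.apply_symm_apply, QuadraticMap.map_smul, hσ] at h1
    exact h1
  obtain ⟨β, hβ⟩ : ∃ β : EE μ, β = (α * α - algebraMap F (EE μ) ν) * S.q w₀ := ⟨_, rfl⟩
  have hβe : ∀ e : EE μ, (β * (e * e)).re = 0 := by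
    intro e
    have h1 := hq (e • w₀)
    rw [QuadraticMap.map_smul, smul_eq_mul] at h1
    have h3 : β * (e * e) = α * α * (e * e * S.q w₀)
        - algebraMap F (EE μ) ν * (e * e * S.q w₀) := by
      rw [hβ]; ring
    rw [h3, QuadraticAlgebra.re_sub, h1, QuadraticAlgebra.re_mul]
    simp [QuadraticAlgebra.algebraMap_eq]
  have hre : β.re = 0 := by
    have := hβe 1
    simpa using this
  have him : β.im = 0 := by
    have h1 := hβe (1 + QuadraticAlgebra.omega)
    rw [QuadraticAlgebra.re_mul, hre] at h1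
    simp only [QuadraticAlgebra.im_mul, QuadraticAlgebra.re_add, QuadraticAlgebra.im_add,
      QuadraticAlgebra.re_one, QuadraticAlgebra.im_one, QuadraticAlgebra.omega_re,
      QuadraticAlgebra.omega_im] at h1
    have h3 : μ * β.im * 2 = 0 := by
      linear_combination h1
    rcases mul_eq_zero.1 h3 with h4 | h4
    · exact (mul_eq_zero.1 h4).resolve_left hμ0
    · exact absurd h4 h2
  have hβ0 : β = 0 := QuadraticAlgebra.ext hre him
  have hαα : α * α = algebraMap F (EE μ) ν := by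
    rw [hβ] at hβ0
    rcases mul_eq_zero.1 hβ0 with h | h
    · exact sub_eq_zero.1 h
    · exact absurd h hw₀
  have hactZ : ∀ v, act z v = (z.left : Matrix ι ι F) *ᵥ v := by
    intro v
    rw [act_def, hσ]
    rfl
  refine ⟨ν, ?_⟩
  apply matrix_ext_mulVec
  intro v
  apply S.j.injective
  rw [← Matrix.mulVec_mulVec, ← hactZ, ← hactZ, hα, hα, smul_smul, hαα, Matrix.smul_mulVec,
    Matrix.one_mulVec, S.j_smul]

end Cfsg.Agent.Lib.Helper80.LBM
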