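import Cfsg.Agent.Lib.Helper80.LBM.Base
import Cfsg.Agent.Lib.Helper8.LBMC
import Cfsg.Agent.Lib.Helper8.LBMD

set_option autoImplicit false

namespace Cfsg.Agent.Lib.Helper80.LBM

open Matrix QuadraticMap Module Cfsg.Agent.Lib.Helper13.OOut Cfsg.Agent.Lib.Helper43.PA
  Cfsg.Agent.Lib.Helper43.PO Cfsg.Agent.Lib.Helper44 Cfsg.Agent.Lib.Helper8.LBM

universe u

variable {F : Type u} [Field F] {ι : Type} [Fintype ι] [DecidableEq ι]

/-- [K1] normal form of a graph involution. -/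
theorem graph_normal_form [Fintype F] (h2 : (2 : F) ≠ 0) (Q : QuadraticForm F (ι → F))
    (hQ : (polarBilin Q).Nondegenerate) (hn : 5 ≤ Fintype.card ι) {n : ℕ}
    (hι : Fintype.card ι = 2 * n) (g : ↥(Cfsg.Geo.quadSimilarityGroup ⇑Q))
    (hg : g ∉ SS Q (exists_ne_zero Q hQ hn) n)
    (hgg : conjPOmega ⇑Q g * conjPOmega ⇑Q g = 1) :
    (∃ g' : ↥(Cfsg.Geo.quadSimilarityGroup ⇑Q), conjPOmega ⇑Q g' = conjPOmega ⇑Q g ∧
      (∀ v, Q (((g' : GL ι F) : Matrix ι ι F) *ᵥ v) = Q v) ∧ (g' : GL ι F) * (g' : GL ι F) = 1 ∧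
      ((g' : GL ι F) : Matrix ι ι F).det = -1) ∨
    (∃ μ : F, ¬ IsSquare μ ∧ (∀ v, Q (((g : GL ι F) : Matrix ι ι F) *ᵥ v) = μ * Q v) ∧
      ((g : GL ι F) : Matrix ι ι F) * ((g : GL ι F) : Matrix ι ι F) = μ • (1 : Matrix ι ι F) ∧
      ((g : GL ι F) : Matrix ι ι F).det ≠ μ ^ n) := by
  have hex := exists_ne_zero Q hQ hn
  obtain ⟨G, hG⟩ : ∃ G : Matrix ι ι F, G = ((g : GL ι F) : Matrix ι ι F) := ⟨_, rfl⟩
  obtain ⟨μ, hμdef⟩ : ∃ μ : F, μ = (multF Q g : F) := ⟨_, rfl⟩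
  have hμ0 : μ ≠ 0 := by rw [hμdef]; exact Units.ne_zero _
  have hspec : ∀ v, Q (G *ᵥ v) = μ * Q v := by
    intro v
    rw [hG, hμdef]
    exact multF_spec Q g v
  have h1 : g * g ∈ (conjPOmega ⇑Q).ker := by rw [MonoidHom.mem_ker, map_mul, hgg]
  obtain ⟨lam, hlam⟩ := (mem_ker_conjPOmega_iff' Q hQ hn _).1 h1
  have hGG : G * G = lam • (1 : Matrix ι ι F) := by
    rw [hG, ← hlam]
    rfl
  have hmm : lam * lam = μ * μ := by
    obtain ⟨v, hv⟩ := hex
    have h3 := hspec (G *ᵥ v)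
    rw [Matrix.mulVec_mulVec, hGG, Matrix.smul_mulVec, Matrix.one_mulVec, QuadraticMap.map_smul,
      hspec, smul_eq_mul] at h3
    apply mul_right_cancel₀ hv
    rw [h3]; ring
  have hdetne : G.det ≠ μ ^ n := by
    intro h
    exact hg ((mem_SS_odd h2 Q hex n g).2 (by rw [← hG, ← hμdef]; exact h))
  obtain ⟨Γ, hΓ, hdet, -, hiso⟩ := exists_gram h2 Q hQ
  have hgΓ : Gᵀ * Γ * G = μ • Γ := (hiso G μ).1 hspec
  have hlam' : lam = μ := by
    rcases mul_self_eq_mul_self_iff.1 hmm with h | h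
    · exact h
    · exfalso
      apply hdetne
      exact det_of_skew h2 Γ G hdet μ hμ0 n hι hgΓ (by rw [hGG, h])
  rw [hlam'] at hGG
  by_cases hsq : IsSquare μ
  · left
    obtain ⟨c, hc⟩ := hsq
    have hc0 : c ≠ 0 := by
      rintro rfl
      apply hμ0
      rw [hc, mul_zero]
    have hdetG : G.det = -μ ^ n := by
      have h3 := congrArg Matrix.det hgΓ
      rw [Matrix.det_mul, Matrix.det_mul, Matrix.det_transpose, Matrix.det_smul, hι] at h3
      have h4 : G.det * G.det = μ ^ n * μ ^ n := by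
        apply mul_right_cancel₀ hdet
        have h5 : μ ^ n * μ ^ n = μ ^ (2 * n) := by ring
        rw [h5, ← h3]
        ring
      rcases mul_self_eq_mul_self_iff.1 h4 with h | h
      · exact absurd h hdetne
      · exact h
    have hcoe : (((scalSimil Q (Units.mk0 c hc0)⁻¹ * g : ↥(Cfsg.Geo.quadSimilarityGroup ⇑Q)) :
        GL ι F) : Matrix ι ι F) = c⁻¹ • G := by
      rw [Subgroup.coe_mul, Units.val_mul, scalSimil_coe, hG]
      simp
    refine ⟨scalSimil Q (Units.mk0 c hc0)⁻¹ * g, ?_, ?_, ?_, ?_⟩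
    · rw [map_mul, MonoidHom.mem_ker.1 (scal_mem_ker Q hQ hn _), one_mul]
    · intro v
      rw [hcoe, Matrix.smul_mulVec, QuadraticMap.map_smul, hspec, hc, smul_eq_mul]
      field_simp
    · apply Units.ext
      rw [Units.val_mul, hcoe, Matrix.smul_mul, Matrix.mul_smul, hGG, smul_smul, smul_smul, hc]
      rw [Units.val_one]
      have : c⁻¹ * c⁻¹ * (c * c) = 1 := by field_simp
      rw [this, one_smul]
    · rw [hcoe, Matrix.det_smul, hdetG, hι, hc]
      have : c⁻¹ ^ (2 * n) * (c * c) ^ n = 1 := by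
        rw [pow_mul, ← mul_pow]
        have : c⁻¹ ^ 2 * (c * c) = 1 := by field_simp
        rw [this, one_pow]
      rw [mul_neg, this]
  · right
    refine ⟨μ, hsq, ?_, ?_, ?_⟩
    · rw [← hG]; exact hspec
    · rw [← hG]; exact hGG
    · rw [← hG]; exact hdetne

end Cfsg.Agent.Lib.Helper80.LBM
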