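import Cfsg.Agent.Lib.Helper1.Tools

set_option autoImplicit false

namespace Cfsg.Agent.Lib.Helper80.LBM

/-- [B] HBG: the largest `L`-invariant subgroup of `L` of order prime to `p`. -/
theorem exists_max_pprime {K : Type*} [Group K] [Finite K] (L : Subgroup K) (p : ℕ)
    [Fact p.Prime] :
    ∃ N : Subgroup K, N ≤ L ∧ (∀ l ∈ L, ∀ k ∈ N, l * k * l⁻¹ ∈ N) ∧ ¬ p ∣ Nat.card N ∧
      (∀ M : Subgroup K, M ≤ L → (∀ l ∈ L, ∀ k ∈ M, l * k * l⁻¹ ∈ M) → ¬ p ∣ Nat.card M → M ≤ N) ∧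
      (∀ γ : MulAut K, (∀ l, l ∈ L ↔ γ l ∈ L) → ∀ k ∈ N, γ k ∈ N) := by
  classical
  have hp : p.Prime := Fact.out
  let S : Set (Subgroup K) := {M | M ≤ L ∧ (∀ l ∈ L, ∀ k ∈ M, l * k * l⁻¹ ∈ M) ∧ ¬ p ∣ Nat.card M}
  have hSne : S.Nonempty := ⟨⊥, bot_le, by
    intro l _ k hk
    rw [Subgroup.mem_bot] at hk ⊢
    rw [hk]; group, by
    rw [Subgroup.card_bot]
    exact hp.one_lt.ne' ∘ Nat.dvd_one.1⟩
  have hSfin : S.Finite := Set.toFinite S
  obtain ⟨N, hNS, hmax⟩ := Set.exists_max_image S (fun M => Nat.card M) hSfin hSne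
  have hbig : ∀ M ∈ S, M ≤ N := by
    intro M hM
    have hnorm : M ≤ Subgroup.normalizer (N : Set K) := by
      intro x hx
      rw [Subgroup.mem_normalizer_iff]
      intro k
      constructor
      · intro hk
        exact hNS.2.1 x (hM.1 hx) k hk
      · intro hk
        have := hNS.2.1 x⁻¹ (L.inv_mem (hM.1 hx)) _ hk
        convert this using 1
        group
    have h1 : M ⊔ N ∈ S := by
      refine ⟨sup_le hM.1 hNS.1, ?_, ?_⟩
      · intro l hl k hk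
        have h2 : (M ⊔ N).map (MulAut.conj l).toMonoidHom ≤ M ⊔ N := by
          rw [Subgroup.map_sup]
          apply sup_le_sup
          · rintro _ ⟨x, hx, rfl⟩
            exact hM.2.1 l hl x hx
          · rintro _ ⟨x, hx, rfl⟩
            exact hNS.2.1 l hl x hx
        exact h2 ⟨k, hk, rfl⟩
      · intro hdvd
        rcases (Nat.Prime.dvd_mul hp).1 (hdvd.trans (Cfsg.Agent.Lib.Helper1.card_sup_dvd hnorm)) with h | h
        · exact hM.2.2 h
        · exact hNS.2.2 h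
    have h2 := hmax _ h1
    have h3 : N = M ⊔ N := Subgroup.eq_of_le_of_card_ge le_sup_right h2
    rw [h3]
    exact le_sup_left
  refine ⟨N, hNS.1, hNS.2.1, hNS.2.2, fun M h1 h2 h3 => hbig M ⟨h1, h2, h3⟩, ?_⟩
  intro γ hγ k hk
  have h1 : N.map γ.toMonoidHom ∈ S := by
    refine ⟨?_, ?_, ?_⟩
    · rintro _ ⟨x, hx, rfl⟩
      exact (hγ x).1 (hNS.1 hx)
    · rintro l hl _ ⟨x, hx, rfl⟩
      have hl' : γ⁻¹ l ∈ L := by
        rw [hγ]
        simpa using hl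
      refine ⟨γ⁻¹ l * x * (γ⁻¹ l)⁻¹, hNS.2.1 _ hl' x hx, ?_⟩
      simp
    · rw [Subgroup.card_map_of_injective γ.injective]
      exact hNS.2.2
  exact hbig _ h1 ⟨k, hk, rfl⟩

end Cfsg.Agent.Lib.Helper80.LBM
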