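import Cfsg.Agent.Lib.Helper80.LBM.K3
import Cfsg.Agent.Lib.Helper80.LBM.PB

set_option autoImplicit false

namespace Cfsg.Agent.Lib.Helper80.LBM

open Matrix QuadraticMap Module Cfsg.Agent.Lib.Helper13.OOut Cfsg.Agent.Lib.Helper43.PA
  Cfsg.Agent.Lib.Helper43.PO Cfsg.Agent.Lib.Helper44

universe u

variable {F : Type u} [Field F] {ι : Type} [Fintype ι] [DecidableEq ι]

lemma thO_inlG_coe (Q : (ι → F) → F) (c : ↥(Cfsg.Geo.quadSimilarityGroup Q))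
    (t : ↥(Cfsg.Omega F Q)) :
    (((thO Q (inlG Q c) t : ↥(Cfsg.Omega F Q)) : ↥(Cfsg.isometryGroup F Q)) : GL ι F)
      = (c : GL ι F) * ((t : ↥(Cfsg.isometryGroup F Q)) : GL ι F) * (c : GL ι F)⁻¹ := by
  rw [thO_coe, cAut_apply, inlG_coe]
  simp

/-- a similarity commuting with `g` preserves `LQ`. -/
lemma Th_mem_LQ (Q : (ι → F) → F) (g c : ↥(Cfsg.Geo.quadSimilarityGroup Q))
    (hc : c * g = g * c) (l : Cfsg.POmega F Q) (hl : l ∈ LQ Q (inlG Q g)) :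
    Th Q (inlG Q c) l ∈ LQ Q (inlG Q g) := by
  obtain ⟨s, hs, rfl⟩ := hl
  have hs' : thO Q (inlG Q g) s = s := hs
  show Th Q (inlG Q c) (QuotientGroup.mk s) ∈ _
  rw [Th_mk]
  apply mk_mem_LLg
  rw [thO_inlG_eq_iff] at hs' ⊢
  rw [thO_inlG_coe]
  have hc' : (c : GL ι F) * (g : GL ι F) = (g : GL ι F) * (c : GL ι F) := by
    have := congrArg (fun x : ↥(Cfsg.Geo.quadSimilarityGroup Q) => (x : GL ι F)) hc
    simpa using this
  set C := (c : GL ι F)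
  set G := (g : GL ι F)
  set S := ((s : ↥(Cfsg.isometryGroup F Q)) : GL ι F)
  have hc2 : C⁻¹ * G = G * C⁻¹ := by
    rw [inv_mul_eq_iff_eq_mul, ← mul_assoc, hc', mul_assoc, mul_inv_cancel, mul_one]
  calc C * S * C⁻¹ * G = C * S * (C⁻¹ * G) := by group
    _ = C * (S * G) * C⁻¹ := by rw [hc2]; group
    _ = (C * G) * S * C⁻¹ := by rw [hs']; group
    _ = G * (C * S * C⁻¹) := by rw [hc']; group

lemma Th_mem_LQ_iff (Q : (ι → F) → F) (g c : ↥(Cfsg.Geo.quadSimilarityGroup Q))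
    (hc : c * g = g * c) (l : Cfsg.POmega F Q) :
    l ∈ LQ Q (inlG Q g) ↔ Th Q (inlG Q c) l ∈ LQ Q (inlG Q g) := by
  refine ⟨Th_mem_LQ Q g c hc l, fun h => ?_⟩
  have hc2 : c⁻¹ * g = g * c⁻¹ := by
    rw [inv_mul_eq_iff_eq_mul, ← mul_assoc, hc, mul_assoc, mul_inv_cancel, mul_one]
  have := Th_mem_LQ Q g c⁻¹ hc2 _ h
  rwa [← MulAut.mul_apply, ← map_mul, ← map_mul, inv_mul_cancel, map_one, map_one] at this

/-- [K2] HB glue. -/
theorem hb_glue [Fintype F] (Q : QuadraticForm F (ι → F))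
    (hQ : (polarBilin Q).Nondegenerate) (hn : 5 ≤ Fintype.card ι)
    (g : ↥(Cfsg.Geo.quadSimilarityGroup ⇑Q))
    (hP : ∀ H : Subgroup (GL ι F),
      (∀ y ∈ H, (∀ v, Q ((y : Matrix ι ι F) *ᵥ v) = Q v) ∧ y * (g : GL ι F) = (g : GL ι F) * y) →
      (∀ c : GL ι F, (∀ v, Q ((c : Matrix ι ι F) *ᵥ v) = Q v) →
        c * (g : GL ι F) = (g : GL ι F) * c → ∀ y ∈ H, c * y * c⁻¹ ∈ H) →
      (∃ y ∈ H, ∀ c : F, (y : Matrix ι ι F) ≠ c • (1 : Matrix ι ι F)) →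
      ∃ t ∈ H, ∀ k : ℕ, Odd k → ∀ c : F, ((t ^ k : GL ι F) : Matrix ι ι F) ≠ c • (1 : Matrix ι ι F))
    (M : Subgroup (Cfsg.POmega F ⇑Q)) (hM : M ≤ LQ ⇑Q (inlG ⇑Q g))
    (hMn : ∀ l ∈ LQ ⇑Q (inlG ⇑Q g), ∀ k ∈ M, l * k * l⁻¹ ∈ M) (hne : M ≠ ⊥) :
    2 ∣ Nat.card M := by
  by_contra hodd
  have : Fact (Nat.Prime 2) := ⟨Nat.prime_two⟩
  have hfin : Finite (Cfsg.POmega F ⇑Q) := inferInstance
  obtain ⟨N, hNL, -, hNodd, hNmax, hNaut⟩ := exists_max_pprime (LQ ⇑Q (inlG ⇑Q g)) 2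
  have hMN : M ≤ N := hNmax M hM hMn hodd
  let H0 : Subgroup ↥(Cfsg.Omega F ⇑Q) :=
    N.comap (QuotientGroup.mk' (Subgroup.center ↥(Cfsg.Omega F ⇑Q))) ⊓
      MonoidHom.eqLocus (thO ⇑Q (inlG ⇑Q g)).toMonoidHom (MonoidHom.id _)
  let H : Subgroup (GL ι F) :=
    H0.map ((Cfsg.isometryGroup F ⇑Q).subtype.comp (Cfsg.Omega F ⇑Q).subtype)
  have hH0 : ∀ s : ↥(Cfsg.Omega F ⇑Q), s ∈ H0 ↔
      (QuotientGroup.mk s : Cfsg.POmega F ⇑Q) ∈ N ∧ thO ⇑Q (inlG ⇑Q g) s = s := fun s => Iff.rfl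
  suffices hsuff : ∃ t ∈ H, ∀ k : ℕ, Odd k → ∀ c : F,
      ((t ^ k : GL ι F) : Matrix ι ι F) ≠ c • (1 : Matrix ι ι F) by
    obtain ⟨t, ⟨s, hs, rfl⟩, ht⟩ := hsuff
    have h1 : (QuotientGroup.mk s : Cfsg.POmega F ⇑Q) ^ Nat.card N = 1 := by
      have := pow_card_eq_one' (G := N) (x := ⟨_, ((hH0 s).1 hs).1⟩)
      exact congrArg Subtype.val this
    rw [← QuotientGroup.mk_pow, QuotientGroup.eq_one_iff, mem_center_Omega_iff Q hQ hn] at h1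
    have hk : Odd (Nat.card N) := Nat.not_even_iff_odd.1 (fun h => hNodd h.two_dvd)
    rcases h1 with h1 | h1
    · apply ht _ hk 1
      rw [one_smul, ← h1]
      rfl
    · apply ht _ hk (-1)
      rw [neg_smul, one_smul, ← h1]
      rfl
  apply hP H
  · rintro _ ⟨s, hs, rfl⟩
    exact ⟨mem_isometryGroup.1 s.1.2, (thO_inlG_eq_iff _ g s).1 ((hH0 s).1 hs).2⟩
  · rintro c hc hcg _ ⟨s, hs, rfl⟩
    let c' : ↥(Cfsg.isometryGroup F ⇑Q) := ⟨c, mem_isometryGroup.2 hc⟩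
    have hcg' : ofO Q c' * g = g * ofO Q c' := Subtype.ext hcg
    refine ⟨thO ⇑Q (inlG ⇑Q (ofO Q c')) s, ?_, ?_⟩
    · apply (hH0 _).2
      have h1 := (hH0 s).1 hs
      constructor
      · rw [← Th_mk]
        exact hNaut _ (Th_mem_LQ_iff _ g _ hcg') _ h1.1
      · have h2 := Th_mem_LQ ⇑Q g _ hcg' _ (mk_mem_LLg h1.2)
        rw [thO_inlG_eq_iff, thO_inlG_coe, ofO_coe]
        have h3 := (thO_inlG_eq_iff _ g s).1 h1.2
        show c * _ * c⁻¹ * _ = _ * (c * _ * c⁻¹)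
        set G := (g : GL ι F)
        set S := ((s : ↥(Cfsg.isometryGroup F ⇑Q)) : GL ι F)
        have hc2 : c⁻¹ * G = G * c⁻¹ := by
          rw [inv_mul_eq_iff_eq_mul, ← mul_assoc, hcg, mul_assoc, mul_inv_cancel, mul_one]
        calc c * S * c⁻¹ * G = c * S * (c⁻¹ * G) := by group
          _ = c * (S * G) * c⁻¹ := by rw [hc2]; group
          _ = (c * G) * S * c⁻¹ := by rw [h3]; group
          _ = G * (c * S * c⁻¹) := by rw [hcg]; group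
    · exact thO_inlG_coe _ _ _
  · obtain ⟨⟨k, hkM⟩, hk1'⟩ := Subgroup.ne_bot_iff_exists_ne_one.1 hne
    have hk1 : k ≠ 1 := fun h => hk1' (Subtype.ext h)
    obtain ⟨s, hs, rfl⟩ := hM hkM
    refine ⟨_, ⟨s, (hH0 s).2 ⟨hMN hkM, hs⟩, rfl⟩, ?_⟩
    intro c hc
    apply hk1
    show (QuotientGroup.mk s : Cfsg.POmega F ⇑Q) = 1
    rw [QuotientGroup.eq_one_iff, Subgroup.mem_center_iff]
    intro x
    apply Subtype.ext
    apply isometryGroup_ext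
    simp only [Subgroup.coe_mul, Units.val_mul]
    have hc' : (((s : ↥(Cfsg.isometryGroup F ⇑Q)) : GL ι F) : Matrix ι ι F)
        = c • (1 : Matrix ι ι F) := hc
    rw [hc']; simp

end Cfsg.Agent.Lib.Helper80.LBM
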