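import Cfsg.Agent.Lib.Helper80.LBM.Base

set_option autoImplicit false

namespace Cfsg.Agent.Lib.Helper80.LBM

open Matrix QuadraticMap Module Cfsg.Agent.Lib.Helper13.OOut Cfsg.Agent.Lib.Helper43.PA
  Cfsg.Agent.Lib.Helper43.PO Cfsg.Agent.Lib.Helper44

universe u

variable {F : Type u} [Field F] {ι : Type} [Fintype ι] [DecidableEq ι]

lemma thO_inlG_eq_iff (Q : (ι → F) → F) (g : ↥(Cfsg.Geo.quadSimilarityGroup Q))
    (t : ↥(Cfsg.Omega F Q)) :
    thO Q (inlG Q g) t = t ↔ ((t : ↥(Cfsg.isometryGroup F Q)) : GL ι F) * (g : GL ι F)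
      = (g : GL ι F) * ((t : ↥(Cfsg.isometryGroup F Q)) : GL ι F) := by
  have h0 : cAut ((inlG Q g : ↥(Gam Q)) : SG F ι) ((t : ↥(Cfsg.isometryGroup F Q)) : GL ι F)
      = (g : GL ι F) * ((t : ↥(Cfsg.isometryGroup F Q)) : GL ι F) * (g : GL ι F)⁻¹ := by
    rw [cAut_apply, inlG_coe]
    simp
  constructor
  · intro h
    have h1 := congrArg (fun s : ↥(Cfsg.Omega F Q) => ((s : ↥(Cfsg.isometryGroup F Q)) : GL ι F)) h
    simp only [thO_coe, h0] at h1
    rw [mul_inv_eq_iff_eq_mul] at h1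
    exact h1.symm
  · intro h
    apply Subtype.ext
    apply Subtype.ext
    rw [thO_coe, h0, mul_inv_eq_iff_eq_mul]
    exact h.symm

/-- [K3] an automorphism fixing `LQ` pointwise commutes with squares. -/
theorem commSq_of_fix [Fintype F] (Q : QuadraticForm F (ι → F))
    (hQ : (polarBilin Q).Nondegenerate) (hn : 5 ≤ Fintype.card ι)
    (g : ↥(Cfsg.Geo.quadSimilarityGroup ⇑Q)) (z : ↥(Gam ⇑Q))
    (hz : ∀ k ∈ LQ ⇑Q (inlG ⇑Q g), Th ⇑Q z k = k) : CommSq ⇑Q (g : GL ι F) (z : SG F ι) := by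
  intro t ht v
  have h1 : thO ⇑Q (inlG ⇑Q g) t = t := (thO_inlG_eq_iff _ g t).2 ht
  have h2 := hz _ (mk_mem_LLg h1)
  rw [Th_mk, QuotientGroup.eq, mem_center_Omega_iff Q hQ hn] at h2
  set T : Matrix ι ι F := (((t : ↥(Cfsg.isometryGroup F ⇑Q)) : GL ι F) : Matrix ι ι F) with hT
  set T' : Matrix ι ι F := ((cAut (z : SG F ι) ((t : ↥(Cfsg.isometryGroup F ⇑Q)) : GL ι F) : GL ι F) :
    Matrix ι ι F) with hT'
  have hinv : T' * (((((thO ⇑Q z t)⁻¹ * t : ↥(Cfsg.Omega F ⇑Q)) : ↥(Cfsg.isometryGroup F ⇑Q)) :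
      GL ι F) : Matrix ι ι F) = T := by
    simp only [Subgroup.coe_mul, Units.val_mul, InvMemClass.coe_inv, thO_coe]
    rw [hT', ← mul_assoc, ← Units.val_mul, mul_inv_cancel]
    simp [hT]
  have h3 : T' = T ∨ T' = -T := by
    rcases h2 with h2 | h2
    · left
      rw [h2, mul_one] at hinv
      exact hinv
    · right
      rw [h2, mul_neg, mul_one] at hinv
      rw [← hinv, neg_neg]
  rw [← cAut_mulVec_act, ← cAut_mulVec_act, ← hT']
  rcases h3 with h3 | h3 <;> rw [h3]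
  simp [Matrix.neg_mulVec, Matrix.mulVec_neg]

end Cfsg.Agent.Lib.Helper80.LBM
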