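import Cfsg.Agent.Lib.Helper80.LBM.K1
import Cfsg.Agent.Lib.Helper80.LBM.K2
import Cfsg.Agent.Lib.Helper80.LBM.J2a
import Cfsg.Agent.Lib.Helper80.LBM.J2b
import Cfsg.Agent.Lib.Helper75.LBMF
import Cfsg.Agent.Lib.Helper75.LBMI
import Cfsg.Agent.Lib.Helper63.LBMK1b
import Cfsg.Agent.Lib.Helper63.LBMK4
import Cfsg.Agent.Lib.Helper43.LB.FieldCase
import Cfsg.Agent.Lib.Helper1.LBMJ1b

set_option autoImplicit false

/-!
# Local balance for the minus type orthogonal groups (row S2733): assembly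
-/

namespace Cfsg.Agent.Lib.Helper80.LBM

open Matrix QuadraticMap Module Cfsg.Agent.Lib.Helper13.OOut Cfsg.Agent.Lib.Helper43.PA
  Cfsg.Agent.Lib.Helper43.PO Cfsg.Agent.Lib.Helper44 Cfsg.Agent.Lib.Helper8.LBM
  Cfsg.Agent.Lib.Helper75.LBM Cfsg.Agent.Lib.Helper63.LBM Cfsg.Agent.Lib.Helper1.LBM

universe u

variable {F : Type u} [Field F] {ι : Type} [Fintype ι] [DecidableEq ι]

/-- the generic criterion for a similarity `g`. -/
theorem graph_core [Fintype F] (Q : QuadraticForm F (ι → F))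
    (hQ : (polarBilin Q).Nondegenerate) (hn : 5 ≤ Fintype.card ι)
    (htop : Cfsg.gammaPOmega F ⇑Q = ⊤) [Nontrivial (Cfsg.POmega F ⇑Q)]
    (g : ↥(Cfsg.Geo.quadSimilarityGroup ⇑Q))
    (hP : ∀ H : Subgroup (GL ι F),
      (∀ y ∈ H, (∀ v, Q ((y : Matrix ι ι F) *ᵥ v) = Q v) ∧ y * (g : GL ι F) = (g : GL ι F) * y) →
      (∀ c : GL ι F, (∀ v, Q ((c : Matrix ι ι F) *ᵥ v) = Q v) →
        c * (g : GL ι F) = (g : GL ι F) * c → ∀ y ∈ H, c * y * c⁻¹ ∈ H) →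
      (∃ y ∈ H, ∀ c : F, (y : Matrix ι ι F) ≠ c • (1 : Matrix ι ι F)) →
      ∃ t ∈ H, ∀ k : ℕ, Odd k → ∀ c : F, ((t ^ k : GL ι F) : Matrix ι ι F) ≠ c • (1 : Matrix ι ι F))
    (hC : ∀ z : SG F ι, z ∈ Gam ⇑Q → CommSq ⇑Q (g : GL ι F) z →
      z.right = 1 ∧ ∃ c : F, (z.left : Matrix ι ι F) * (z.left : Matrix ι ι F)
        = c • (1 : Matrix ι ι F))
    (A : Subgroup (MulAut (Cfsg.POmega F ⇑Q))) (hinn : ∀ k, MulAut.conj k ∈ A) :
    ¬ Cfsg.pPrimeCore 2 ↥(A ⊓ Subgroup.centralizer {conjPOmega ⇑Q g}) ≠ ⊥ ∧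
      ¬ Nat.Coprime 2 (Nat.card ↥(MonoidHom.eqLocus (conjPOmega ⇑Q g).toMonoidHom
        (MonoidHom.id (Cfsg.POmega F ⇑Q)))) := by
  have hφ : conjPOmega ⇑Q g = Th ⇑Q (inlG ⇑Q g) := by
    rw [← Th_inlG]; rfl
  have hfin : Finite (Cfsg.POmega F ⇑Q) := inferInstance
  rw [hφ]
  refine core_two_gen (conj_injective Q hQ hn) (Th ⇑Q (inlG ⇑Q g)) (LQ ⇑Q (inlG ⇑Q g))
    (LLg_fix _ _ (Th_mk _ _)) (LLg_norm _ _ (Th_mk _ _))
    (fun M hM hMn hne => hb_glue Q hQ hn g hP M hM hMn hne) ?_ A hinn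
  intro a ha
  obtain ⟨z, rfl⟩ := Th_surjective Q hQ hn htop a
  obtain ⟨h1, c, hc⟩ := hC z z.2 (commSq_of_fix Q hQ hn g z ha)
  rw [← map_pow, ← MonoidHom.mem_ker, mem_ker_Th_iff Q hQ hn]
  refine ⟨?_, c, ?_⟩
  · rw [_root_.sq, Subgroup.coe_mul, SemidirectProduct.mul_right, h1, one_mul]
  · rw [_root_.sq, Subgroup.coe_mul, SemidirectProduct.mul_left, h1, map_one, Units.val_mul]
    exact hc

/-- the graph case. -/
theorem graph_case [Fintype F] (h2 : (2 : F) ≠ 0) (Q : QuadraticForm F (ι → F))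
    (hQ : (polarBilin Q).Nondegenerate) (hn : 8 ≤ Fintype.card ι) {n : ℕ}
    (hι : Fintype.card ι = 2 * n)
    (htop : Cfsg.gammaPOmega F ⇑Q = ⊤) [Nontrivial (Cfsg.POmega F ⇑Q)]
    (g : ↥(Cfsg.Geo.quadSimilarityGroup ⇑Q))
    (hg : g ∉ SS Q (exists_ne_zero Q hQ (by omega)) n)
    (hgg : conjPOmega ⇑Q g * conjPOmega ⇑Q g = 1)
    (A : Subgroup (MulAut (Cfsg.POmega F ⇑Q))) (hinn : ∀ k, MulAut.conj k ∈ A) :
    ¬ Cfsg.pPrimeCore 2 ↥(A ⊓ Subgroup.centralizer {conjPOmega ⇑Q g}) ≠ ⊥ ∧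
      ¬ Nat.Coprime 2 (Nat.card ↥(MonoidHom.eqLocus (conjPOmega ⇑Q g).toMonoidHom
        (MonoidHom.id (Cfsg.POmega F ⇑Q)))) := by
  obtain ⟨Γ, hΓ, hdet, -, hiso⟩ := exists_gram h2 Q hQ
  have hiso1 : ∀ s : Matrix ι ι F, (∀ v, Q (s *ᵥ v) = Q v) ↔ sᵀ * Γ * s = Γ := by
    intro s
    have := hiso s 1
    simpa using this
  rcases graph_normal_form h2 Q hQ (by omega) hι g hg hgg with
    ⟨g', hg', hgi, hgg', hdet'⟩ | ⟨μ, hμ, hgs, hgg', hdet'⟩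
  · rw [← hg']
    refine graph_core Q hQ (by omega) htop g' ?_ ?_ A hinn
    · intro H hH hnorm hns
      exact p2c_I h2 Γ hΓ hdet (g' : GL ι F) ((hiso1 _).1 hgi) hgg' hdet' ⟨n, by omega⟩ H
        (fun y hy => ⟨(hiso1 _).1 (hH y hy).1, (hH y hy).2⟩)
        (fun c hc hcg y hy => hnorm c ((hiso1 _).2 hc) hcg y hy) hns
    · intro z hzG hz
      exact hc_I h2 Q hQ hn ⟨n, by omega⟩ (g' : GL ι F) hgi hgg' hdet' z hzG hz
  · have hodd := odd_of_typeII _ μ hμ hgg' hι hdet'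
    have hfact : Fact (∀ r : F, r ^ 2 ≠ μ + 0 * r) := ⟨fun r hr => hμ ⟨r, by rw [← _root_.sq, hr]; ring⟩⟩
    obtain ⟨S⟩ := exists_EStr h2 Q hQ (g : GL ι F) μ hgs hgg'
    have hd : 5 ≤ S.d := by
      have h1 := S.card_eq
      have h3 : S.d = n := by omega
      rw [h3]
      obtain ⟨k, hk⟩ := hodd
      omega
    refine graph_core Q hQ (by omega) htop g ?_ ?_ A hinn
    · intro H hH hnorm hns
      exact p2c_II h2 Γ hΓ hdet (g : GL ι F) μ hμ ((hiso _ _).1 hgs) hgg' (by omega) H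
        (fun y hy => ⟨(hiso1 _).1 (hH y hy).1, (hH y hy).2⟩)
        (fun c hc hcg y hy => hnorm c ((hiso1 _).2 hc) hcg y hy) hns
    · intro z hzG hz
      obtain ⟨α, hα⟩ := EStr.scalar h2 Q hQ (g : GL ι F) μ S hd z hz
      exact hc_II_of_scalar h2 Q (g : GL ι F) μ S (by omega) z hzG α hα

/-- the row, in a form suited to substitution. -/
theorem row_S2733_gen [Fintype F] {r : ℕ} [Fact r.Prime] [CharP F r] {m : ℕ} (hm : 3 ≤ m)
    (a b : F) (hab : Aniso a b)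
    (Qf : ((Fin m ⊕ Fin m) ⊕ Fin 2 → F) → F) (hQf : Qf = ⇑(minusQF m F a b))
    (Qf' : F → F → ((Fin m ⊕ Fin m) ⊕ Fin 2 → F) → F)
    (hQf' : Qf' = fun a' b' => ⇑(minusQF m F a' b'))
    (hK : IsSimpleGroup (Cfsg.POmega F Qf))
    (A : Subgroup (MulAut (Cfsg.POmega F Qf))) (hinn : ∀ k, MulAut.conj k ∈ A)
    {p : ℕ} [Fact p.Prime] (hpr : p ≠ r) (x : MulAut (Cfsg.POmega F Qf)) (hord : orderOf x = p)
    (hnot : ¬ ∃ g : GL ((Fin m ⊕ Fin m) ⊕ Fin 2) F,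
      g ∈ Cfsg.Geo.quadSimilarityGroup (F := F) Qf ∧
      Cfsg.PreservesSingularClassesMinus m a b
        (g : Matrix ((Fin m ⊕ Fin m) ⊕ Fin 2) ((Fin m ⊕ Fin m) ⊕ Fin 2) F) ∧
      Cfsg.IsInducedBySemilinearPOmega Qf g (RingEquiv.refl F) x) :
    Cfsg.pPrimeCore p ↥(A ⊓ Subgroup.centralizer {x}) ≠ ⊥ ↔
      (FMgen Qf Qf' x ∧ Nat.Coprime p (Nat.card ↥(MonoidHom.eqLocus x.toMonoidHom
        (MonoidHom.id (Cfsg.POmega F Qf))))) := by
  subst hQf hQf'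
  have hQ := minusQF_nondeg m F hab
  have hn5 := minus_hn m (by omega : 2 ≤ m)
  have hcard := minus_card m
  have htop := Cfsg.Agent.Lib.Helper45.OAut.gamma_top_minus (F := F) hm a b hab
  rw [← minusQF_coe] at htop
  obtain ⟨y, rfl⟩ := Th_surjective _ hQ hn5 htop x
  have hp : p.Prime := Fact.out
  have hr : r.Prime := Fact.out
  by_cases hσ : (y : SG F ((Fin m ⊕ Fin m) ⊕ Fin 2)).right = 1
  · have hy : y ∈ (lam ⇑(minusQF m F a b)).ker := hσ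
    rw [ker_lam] at hy
    obtain ⟨g, rfl⟩ := hy
    have hφ : Th ⇑(minusQF m F a b) (inlG ⇑(minusQF m F a b) g)
        = conjPOmega ⇑(minusQF m F a b) g := by
      rw [← Th_inlG]; rfl
    have hg : g ∉ SS (minusQF m F a b) (exists_ne_zero _ hQ hn5) (m + 1) := by
      intro hgS
      exact hnot ⟨g.1, g.2, (minus_preserves_iff_SS m (by omega) hab _ g).2 hgS,
        (isInduced_iff' _ (inlG ⇑(minusQF m F a b) g) _).2 rfl⟩
    rw [hφ] at hord ⊢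
    have hp2 : p = 2 := by
      by_contra hne
      obtain ⟨k, hk⟩ := hp.odd_of_ne_two hne
      apply hg
      have h1 : g ^ p ∈ SS (minusQF m F a b) (exists_ne_zero _ hQ hn5) (m + 1) := by
        apply ker_le_SS _ hQ hn5 hcard
        rw [MonoidHom.mem_ker, map_pow, ← hord, pow_orderOf_eq_one]
      have h3 : g * g ∈ SS (minusQF m F a b) (exists_ne_zero _ hQ hn5) (m + 1) :=
        mul_mem_SS _ hQ hn5 hcard hg hg
      have h4 : g = g ^ p * ((g * g) ^ k)⁻¹ := by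
        rw [hk, ← pow_two, ← pow_mul, pow_succ', mul_assoc, mul_inv_cancel, mul_one]
      rw [h4]
      exact mul_mem h1 (inv_mem (pow_mem h3 k))
    subst hp2
    have h2 : (2 : F) ≠ 0 := by
      intro h
      have h5 : ((2 : ℕ) : F) = 0 := by exact_mod_cast h
      rw [CharP.cast_eq_zero_iff F r] at h5
      exact hpr ((Nat.prime_dvd_prime_iff_eq hr Nat.prime_two).1 h5).symm
    have hgg : conjPOmega ⇑(minusQF m F a b) g * conjPOmega ⇑(minusQF m F a b) g = 1 := by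
      have h6 := pow_orderOf_eq_one (conjPOmega ⇑(minusQF m F a b) g)
      rw [hord, pow_two] at h6
      exact h6
    have := hK.toNontrivial
    obtain ⟨k1, k2⟩ := graph_case h2 (minusQF m F a b) hQ (by rw [hcard]; omega) hcard htop g hg
      hgg A hinn
    constructor
    · intro h
      exact absurd h k1
    · rintro ⟨-, h⟩
      exact absurd h k2
  · have k := @Cfsg.Agent.Lib.Helper43.LB.field_case F _ _ m hm a b hab A hinn p _ y hσ hord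
    obtain ⟨k1, k2⟩ := k
    exact ⟨fun h => ⟨k1, k2.1 h⟩, fun h => k2.2 h.2⟩

end Cfsg.Agent.Lib.Helper80.LBM
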